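import Cfsg.Agent.Fus.Normal
import Cfsg.Agent.Fus.Group
import Cfsg.Prelude.Def_LocalEven

set_option autoImplicit false

/-! Strongly closed abelian subgroups control strong fusion; a complement to the centre in `Z(S)`. -/

namespace Cfsg.Agent.Fus

open Cfsg Cfsg.FusionSystem

theorem stronglyClosed_abelian_controls {G : Type*} [Group G] [Finite G] {p : ℕ} [Fact p.Prime] (S : Sylow p G)
    {A : Subgroup G} (hA : IsMulCommutative ↥A) (hsc : IsStronglyClosed A (S : Subgroup G)) :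
    ControlsStrongFusion p A := by
  have hsc' : (groupFusionSystem (S : Subgroup G)).StronglyClosed A := by
    refine ⟨hsc.1, fun R hR φ hφ x => ?_⟩
    obtain ⟨-, hm, g, hg⟩ := hφ
    rw [hg x]
    exact hsc.2 x (hR x.2) g (hg x ▸ hm x)
  have hn := isNormal_of_stronglyClosed_abelian S.2 (isSaturated_group S) hsc'
    fun x hx y hy => congrArg Subtype.val (hA.is_comm.comm (⟨x, hx⟩ : A) ⟨y, hy⟩)
  refine ⟨S, hsc.1, fun B hB => ⟨hB, fun g hg => ?_⟩⟩
  let P := Subgroup.closure B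
  have hP : P ≤ (S : Subgroup G) := (Subgroup.closure_le _).2 hB
  have hPg : P.map (MulAut.conj g).toMonoidHom ≤ (S : Subgroup G) := by
    rw [MonoidHom.map_closure, Subgroup.closure_le]
    exact hg
  obtain ⟨ψ, ⟨-, hψS, x, hx⟩, h1, h2⟩ := hn.2 P _ (conjHom_mem hP hPg)
  refine ⟨x, mem_normalizer_of_map_conj ?_, fun a ha => ?_⟩
  · rw [map_subgroupOf_eq le_sup_right] at h2
    conv_rhs => rw [← h2]
    ext y
    constructor
    · rintro ⟨z, hz, rfl⟩
      exact ⟨⟨z, hz⟩, hx _⟩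
    · rintro ⟨z, rfl⟩
      exact ⟨z, z.2, (hx (Subgroup.inclusion le_sup_right z)).symm⟩
  · exact (h1 ⟨a, Subgroup.subset_closure ha⟩).symm.trans (hx _)

variable {Ω : Type*} [Group Ω] {S : Subgroup Ω} {F : FusionSystem S}

theorem center_complement [Finite S] {p : ℕ} [Fact p.Prime] (hS : IsPGroup p S) (hF : F.IsSaturated p)
    (hZ : S ⊓ Subgroup.centralizer (S : Set Ω) ≤ F.core) :
    ∃ K : Subgroup Ω, K ≤ S ⊓ Subgroup.centralizer (S : Set Ω) ∧ F.center ⊓ K = ⊥ ∧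
      F.center ⊔ K = S ⊓ Subgroup.centralizer (S : Set Ω) := by
  let Q := F.core
  have hQn : F.IsNormal Q := core_isNormal
  have hQS : Q ≤ S := hQn.1
  let Z := S ⊓ Subgroup.centralizer (S : Set Ω)
  have hconjQ : ∀ s ∈ S, ∀ q ∈ Q, s * q * s⁻¹ ∈ Q := by
    intro s hs q hq
    obtain ⟨α, -, hh⟩ := extProp_of_normal hQn Q le_rfl _ (F.conj_mem hQS hs)
    have := hh ⟨q, hq⟩
    change _ = s * q * s⁻¹ at this
    rw [← this]; exact (α _).2
  have hQfn : F.IsFullyNormalized Q :=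
    ⟨hQS, fun Q' hQ' => by
      refine (Subgroup.card_le_of_le inf_le_left).trans (le_of_eq ?_)
      congr 1
      refine congrArg (fun X : Subgroup Ω => ↥X) (le_antisymm (fun s hs => mem_normalizerIn_iff.2 ⟨hs, fun y =>
        ⟨hconjQ s hs y, fun hy => ?_⟩⟩) inf_le_left)
      have := hconjQ s⁻¹ (S.inv_mem hs) _ hy
      simpa [mul_assoc] using this⟩
  obtain ⟨-, R, hR⟩ := (fullyNormalized_props hS hF hQfn).2
  have : Finite Q := finite_le hQS
  let A := F.autGroup Q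
  let _ : CommGroup (Subgroup.center Q) :=
    { (inferInstance : Group (Subgroup.center Q)) with
      mul_comm := fun a b => Subtype.ext ((Subgroup.mem_center_iff.1 b.2 (a : Q))) }
  have hact : ∀ (a : A) (z : Subgroup.center Q), (a : MulAut Q) (z : Q) ∈ Subgroup.center Q := fun a z => by
    rw [Subgroup.mem_center_iff]
    intro g
    obtain ⟨g', rfl⟩ := (a : MulAut Q).surjective g
    rw [← map_mul, ← map_mul, Subgroup.mem_center_iff.1 z.2 g']
  have hzc : ∀ z : Z, (⟨(z : Ω), hZ z.2⟩ : Q) ∈ Subgroup.center Q := fun z => by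
    rw [Subgroup.mem_center_iff]
    exact fun g => Subtype.ext (z.2.2 g (hQS g.2))
  have hfixR : ∀ r : A, r ∈ (R : Subgroup A) → ∀ z : Z, (r : MulAut Q) ⟨(z : Ω), hZ z.2⟩ = ⟨(z : Ω), hZ z.2⟩ := by
    intro r hr z
    rw [hR] at hr
    obtain ⟨s, hs, hs'⟩ := mem_autInducedBy.1 (Subgroup.mem_subgroupOf.1 hr)
    refine Subtype.ext ?_
    rw [hs' ⟨(z : Ω), hZ z.2⟩]
    show s * (z : Ω) * s⁻¹ = (z : Ω)
    rw [z.2.2 s hs]; group
  have : Fintype (A ⧸ (R : Subgroup A)) := Fintype.ofFinite _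
  let f : Z → (A ⧸ (R : Subgroup A)) → Subgroup.center Q := fun z =>
    Quotient.lift (fun a : A => (⟨(a : MulAut Q) ⟨(z : Ω), hZ z.2⟩, hact a ⟨_, hzc z⟩⟩ : Subgroup.center Q))
      fun a b hab => by
        have hab' : a⁻¹ * b ∈ (R : Subgroup A) := QuotientGroup.leftRel_apply.1 hab
        have := hfixR _ hab' z
        refine Subtype.ext ?_
        calc (a : MulAut Q) ⟨(z : Ω), hZ z.2⟩ = (a : MulAut Q) ((((a⁻¹ * b : A) : MulAut Q)) ⟨(z : Ω), hZ z.2⟩) := by rw [this]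
          _ = _ := by simp [MulAut.mul_apply]
  have hf : ∀ z a, ((f z (QuotientGroup.mk a) : Subgroup.center Q) : Q) = (a : MulAut Q) ⟨(z : Ω), hZ z.2⟩ :=
    fun z a => rfl
  let tr : Z →* Subgroup.center Q :=
    { toFun := fun z => ∏ q, f z q
      map_one' := Finset.prod_eq_one fun q _ => by
        obtain ⟨a, rfl⟩ := QuotientGroup.mk_surjective q
        exact Subtype.ext ((hf 1 a).trans (map_one (a : MulAut Q)))
      map_mul' := fun x y => by
        rw [← Finset.prod_mul_distrib]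
        refine Finset.prod_congr rfl fun q _ => ?_
        obtain ⟨a, rfl⟩ := QuotientGroup.mk_surjective q
        exact Subtype.ext ((hf _ a).trans (map_mul (a : MulAut Q) ⟨(x : Ω), hZ x.2⟩ ⟨(y : Ω), hZ y.2⟩)) }
  have hfixA : ∀ z (b : A), (b : MulAut Q) ((tr z : Subgroup.center Q) : Q) = ((tr z : Subgroup.center Q) : Q) := by
    intro z b
    let bh : Subgroup.center Q →* Subgroup.center Q :=
      { toFun := fun c => ⟨(b : MulAut Q) (c : Q), hact b c⟩
        map_one' := Subtype.ext (map_one (b : MulAut Q))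
        map_mul' := fun x y => Subtype.ext (map_mul (b : MulAut Q) _ _) }
    have : bh (tr z) = tr z := by
      show bh (∏ q, f z q) = ∏ q, f z q
      rw [map_prod]
      refine Fintype.prod_equiv (MulAction.toPerm b) _ _ fun q => ?_
      obtain ⟨a, rfl⟩ := QuotientGroup.mk_surjective q
      exact Subtype.ext rfl
    exact congrArg Subtype.val this
  have hcenS : F.center ≤ Z := by
    refine sSup_le fun C hC => fun c hc => ⟨hC.1 hc, fun s hs => ?_⟩
    obtain ⟨ψ, -, h1, h2⟩ := hC.2 S _ (F.conj_mem le_rfl hs)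
    have e := (h1 ⟨c, hC.1 hc⟩).symm.trans (h2 ⟨c, hc⟩)
    have e' : s * c * s⁻¹ = c := e
    calc s * c = s * c * s⁻¹ * s := by group
      _ = c * s := by rw [e']
  have hfixC : ∀ (c : Z), (c : Ω) ∈ F.center → ∀ a : A, (a : MulAut Q) ⟨(c : Ω), hZ c.2⟩ = ⟨(c : Ω), hZ c.2⟩ := by
    intro c hc a
    obtain ⟨ψ, -, h1, h2⟩ := (center_isCentral (F := F)).2 Q _ ((mem_autGroup hQS).1 a.2)
    exact Subtype.ext ((h1 ⟨(c : Ω), hZ c.2⟩).symm.trans (h2 ⟨_, hc⟩))
  have hcentral : ∀ z : Z, (∀ a : A, (a : MulAut Q) ⟨(z : Ω), hZ z.2⟩ = ⟨(z : Ω), hZ z.2⟩) → (z : Ω) ∈ F.center := by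
    intro z hz
    refine (le_sSup (show F.IsCentral (Subgroup.zpowers (z : Ω)) from ⟨Subgroup.zpowers_le.2 z.2.1, fun P φ hφ => ?_⟩) :
      _ ≤ F.center) (Subgroup.mem_zpowers _)
    obtain ⟨ψ, hψ, h1, h2⟩ := hQn.2 P φ hφ
    have hle : P ⊔ Subgroup.zpowers (z : Ω) ≤ P ⊔ Q := sup_le_sup_left (Subgroup.zpowers_le.2 (hZ z.2)) _
    refine ⟨_, restrict_mem hψ hle, fun x => (congrArg ψ (Subtype.ext rfl)).trans (h1 x), ?_⟩
    rw [map_subgroupOf_eq le_sup_right] at h2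
    obtain ⟨α, hα, hα'⟩ := exists_aut_of_range (restrict_mem hψ (le_sup_right : Q ≤ P ⊔ Q)) h2
    rintro ⟨w, hw⟩
    obtain ⟨k, rfl⟩ := Subgroup.mem_zpowers_iff.1 hw
    have hz1 := congrArg Subtype.val (hz ⟨α, hα⟩)
    show ψ ⟨(z : Ω) ^ k, _⟩ = (z : Ω) ^ k
    have e : (⟨(z : Ω) ^ k, hle (Subgroup.mem_sup_right hw)⟩ : ↥(P ⊔ Q)) =
        (Subgroup.inclusion le_sup_right (⟨(z : Ω), hZ z.2⟩ : Q)) ^ k := Subtype.ext rfl
    rw [e, map_zpow]
    have h4 := (hα' ⟨(z : Ω), hZ z.2⟩).symm.trans hz1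
    exact congrArg (· ^ k) h4
  have htrC : ∀ z : Z, (((tr z : Subgroup.center Q) : Q) : Ω) ∈ F.center := by
    intro z
    have hm : (((tr z : Subgroup.center Q) : Q) : Ω) ∈ Z := by
      refine ⟨hQS (Subtype.prop _), fun s hs => ?_⟩
      have hN : s ∈ normalizerIn S Q := mem_normalizerIn_iff.2 ⟨hs, fun y => ⟨hconjQ s hs y, fun hy => by
        simpa [mul_assoc] using hconjQ s⁻¹ (S.inv_mem hs) _ hy⟩⟩
      have hb : conjAut hN ∈ A := autInducedBy_le_autGroup hQS le_rfl (conjAut_mem hN)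
      have e := congrArg Subtype.val (hfixA z ⟨_, hb⟩)
      rw [conjAut_apply] at e
      exact (mul_inv_eq_iff_eq_mul.1 e)
    exact hcentral ⟨_, hm⟩ fun a => hfixA z a
  have hidx : ¬ p ∣ Nat.card (A ⧸ (R : Subgroup A)) := by
    rw [← Subgroup.index_eq_card]; exact R.not_dvd_index
  have hroot : ∀ z : Z, ∃ m : ℕ, (z ^ Nat.card (A ⧸ (R : Subgroup A))) ^ m = z := by
    intro z
    obtain ⟨k, hk⟩ := hS ⟨(z : Ω), z.2.1⟩
    have hk' : z ^ p ^ k = 1 := Subtype.ext (congrArg Subtype.val hk :)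
    have hco : (orderOf z).Coprime (Nat.card (A ⧸ (R : Subgroup A))) :=
      Nat.Coprime.coprime_dvd_left (orderOf_dvd_of_pow_eq_one hk')
        (Nat.Coprime.pow_left _ ((Nat.Prime.coprime_iff_not_dvd Fact.out).2 hidx))
    exact exists_pow_eq_self_of_coprime hco.symm
  have htrpow : ∀ c : Z, (c : Ω) ∈ F.center →
      (((tr c : Subgroup.center Q) : Q) : Ω) = (c : Ω) ^ Nat.card (A ⧸ (R : Subgroup A)) := by
    intro c hc
    have : tr c = (⟨_, hzc c⟩ : Subgroup.center Q) ^ Nat.card (A ⧸ (R : Subgroup A)) := by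
      show ∏ q, f c q = _
      rw [Finset.prod_eq_pow_card (b := (⟨_, hzc c⟩ : Subgroup.center Q)) fun q _ => by
        obtain ⟨a, rfl⟩ := QuotientGroup.mk_surjective q
        exact Subtype.ext ((hf c a).trans (hfixC c hc a))]
      rw [Nat.card_eq_fintype_card]
      rfl
    rw [this]; rfl
  refine ⟨tr.ker.map Z.subtype, Subgroup.map_subtype_le _, ?_, le_antisymm (sup_le hcenS (Subgroup.map_subtype_le _)) ?_⟩
  · rw [eq_bot_iff]
    rintro _ ⟨hc, z, hz, rfl⟩
    have h := htrpow z hc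
    rw [MonoidHom.mem_ker.1 hz] at h
    obtain ⟨m, hm⟩ := hroot z
    have h5 : z ^ Nat.card (A ⧸ (R : Subgroup A)) = 1 := Subtype.ext (h.symm :)
    rw [h5, one_pow] at hm
    simp [← hm]
  · intro x hx
    let z : Z := ⟨x, hx⟩
    let c : Z := ⟨_, hcenS (htrC z)⟩
    obtain ⟨m, hm⟩ := hroot c
    have hcm : (c : Ω) ^ m ∈ F.center := F.center.pow_mem (htrC z) m
    let d : Z := ⟨_, hcenS hcm⟩
    have hk : z * d⁻¹ ∈ tr.ker := by
      rw [MonoidHom.mem_ker, map_mul, map_inv, mul_inv_eq_one]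
      refine Subtype.ext (Subtype.ext ?_)
      rw [htrpow d hcm]
      show (c : Ω) = ((c : Ω) ^ m) ^ _
      rw [← pow_mul, mul_comm, pow_mul]
      exact (congrArg Subtype.val hm :).symm
    have : x = (((z * d⁻¹ : Z) : Ω)) * (c : Ω) ^ m := by simp [z, d]
    rw [this]
    exact Subgroup.mul_mem _ (Subgroup.mem_sup_right ⟨_, hk, rfl⟩) (Subgroup.mem_sup_left hcm)

end Cfsg.Agent.Fus
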