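import Cfsg.Agent.Fus.InnerAbelian

set_option autoImplicit false

/-! A saturated system on an abelian group: centre times focal subgroup. -/

namespace Cfsg.Agent.Fus

open Cfsg Cfsg.FusionSystem

variable {Ω : Type*} [Group Ω] {S : Subgroup Ω} {F : FusionSystem S}

theorem center_focal_decomp [Finite S] {p : ℕ} [Fact p.Prime] (hS : IsPGroup p S) (hF : F.IsSaturated p)
    (hab : ∀ x ∈ S, ∀ y ∈ S, x * y = y * x) : F.center ⊓ F.focalSubgroup = ⊥ ∧ F.center ⊔ F.focalSubgroup = S := by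
  let _ : CommGroup S := { (inferInstance : Group S) with mul_comm := fun a b => Subtype.ext (hab a a.2 b b.2) }
  let A := F.autGroup S
  have : Fintype A := Fintype.ofFinite _
  let N : S →* S :=
    { toFun := fun x => ∏ a : A, (a : MulAut S) x
      map_one' := Finset.prod_eq_one fun a _ => map_one _
      map_mul' := fun x y => by simp [Finset.prod_mul_distrib] }
  have hSn := isNormal_of_stronglyClosed_abelian hS hF
    (⟨le_rfl, fun R _ φ hφ x => hom_apply_mem hφ x⟩ : F.StronglyClosed S) hab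
  have hker : F.focalSubgroup ≤ N.ker.map S.subtype := by
    rw [focalSubgroup, Subgroup.closure_le]
    rintro _ ⟨P, φ, x, hφ, rfl⟩
    obtain ⟨β, hβ, h⟩ := hom_eq_normalizerHom hSn hφ
    have hP := hom_le hφ
    refine ⟨⟨x, hP x.2⟩⁻¹ * β ⟨x, hP x.2⟩, ?_, ?_⟩
    · rw [SetLike.mem_coe, MonoidHom.mem_ker, map_mul, map_inv, inv_mul_eq_one]
      show (∏ a : A, (a : MulAut S) _) = ∏ a : A, (a : MulAut S) (β _)
      rw [← Equiv.prod_comp (Equiv.mulRight (⟨β, hβ⟩ : A))]
      rfl
    · show (x : Ω)⁻¹ * _ = _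
      rw [h x (hP x.2)]
  have hfix : ∀ a : A, ∀ z (hz : z ∈ F.center) (hzS : z ∈ S), (a : MulAut S) ⟨z, hzS⟩ = ⟨z, hzS⟩ := by
    intro a z hz hzS
    obtain ⟨ψ, -, h1, h2⟩ := (center_isCentral (F := F)).2 S _ ((mem_autGroup le_rfl).1 a.2)
    refine Subtype.ext ((h1 ⟨z, hzS⟩).symm.trans ?_)
    exact h2 ⟨z, hz⟩
  have hp' := isPGroup'_autGroup hS hF hab
  have hroot : ∀ x : S, ∃ m : ℕ, (x ^ Nat.card A) ^ m = x := by
    intro x
    obtain ⟨k, hk⟩ := hS x
    have hco : (orderOf x).Coprime (Nat.card A) :=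
      Nat.Coprime.coprime_dvd_left (orderOf_dvd_of_pow_eq_one hk)
        (Nat.Coprime.pow_left _ ((Nat.Prime.coprime_iff_not_dvd Fact.out).2 hp'))
    obtain ⟨m, hm⟩ := exists_pow_eq_self_of_coprime hco.symm
    exact ⟨m, hm⟩
  have hfocS : F.focalSubgroup ≤ S := hker.trans (Subgroup.map_subtype_le _)
  have hcenS : F.center ≤ S := (center_isCentral (F := F)).1
  constructor
  · rw [eq_bot_iff]
    rintro z ⟨hz1, hz2⟩
    obtain ⟨y, hy, rfl⟩ := hker hz2
    have h1 : y ^ Nat.card A = 1 := by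
      rw [← MonoidHom.mem_ker.1 hy]
      show _ = ∏ a : A, (a : MulAut S) y
      rw [Finset.prod_congr rfl fun a _ => hfix a y hz1 y.2]
      simp [Nat.card_eq_fintype_card]
    obtain ⟨m, hm⟩ := hroot y
    rw [h1, one_pow] at hm
    simp [← hm]
  · refine le_antisymm (sup_le hcenS hfocS) fun x hx => ?_
    let y : S := ⟨x, hx⟩
    let T : Subgroup S := (F.center ⊔ F.focalSubgroup).subgroupOf S
    have hfoc : ∀ a : A, y⁻¹ * (a : MulAut S) y ∈ T := fun a => by
      refine Subgroup.mem_subgroupOf.2 (Subgroup.mem_sup_right (Subgroup.subset_closure ?_))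
      exact ⟨S, _, y, (mem_autGroup le_rfl).1 a.2, rfl⟩
    have hN : N y ∈ T := by
      refine Subgroup.mem_subgroupOf.2 (Subgroup.mem_sup_left ?_)
      have hQ : F.IsCentral (({z : S | ∀ a : A, (a : MulAut S) z = z}.image Subtype.val : Set Ω) |> Subgroup.closure) := by
        refine ⟨(Subgroup.closure_le _).2 (by rintro _ ⟨z, -, rfl⟩; exact z.2), fun P φ hφ => ?_⟩
        obtain ⟨β, hβ, h⟩ := hom_eq_normalizerHom hSn hφ
        have hle : P ⊔ Subgroup.closure ({z : S | ∀ a : A, (a : MulAut S) z = z}.image Subtype.val) ≤ S :=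
          sup_le (hom_le hφ) ((Subgroup.closure_le _).2 (by rintro _ ⟨z, -, rfl⟩; exact z.2))
        refine ⟨_, restrict_mem ((mem_autGroup le_rfl).1 hβ) hle, fun u => h u (hom_le hφ u.2), ?_⟩
        rintro ⟨u, hu⟩
        show ((β ⟨u, _⟩ : S) : Ω) = u
        induction hu using Subgroup.closure_induction with
        | mem v hv => obtain ⟨z, hz, rfl⟩ := hv; exact congrArg Subtype.val (hz ⟨β, hβ⟩)
        | one => exact congrArg Subtype.val (map_one β)
        | mul v w hv hw ihv ihw =>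
          have hv' := hle (Subgroup.mem_sup_right hv)
          have hw' := hle (Subgroup.mem_sup_right hw)
          rw [show (⟨v * w, _⟩ : S) = ⟨v, hv'⟩ * ⟨w, hw'⟩ from rfl, map_mul, Subgroup.coe_mul, ihv, ihw]
        | inv v hv ihv =>
          have hv' := hle (Subgroup.mem_sup_right hv)
          rw [show (⟨v⁻¹, _⟩ : S) = ⟨v, hv'⟩⁻¹ from rfl, map_inv, Subgroup.coe_inv, ihv]
      have hin : (N y : Ω) ∈ Subgroup.closure (({z : S | ∀ a : A, (a : MulAut S) z = z}.image Subtype.val : Set Ω)) :=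
        Subgroup.subset_closure ⟨N y, fun a => ?fix, rfl⟩
      exact (le_sSup hQ : _ ≤ F.center) hin
      case fix =>
        show (a : MulAut S) (∏ b : A, (b : MulAut S) y) = ∏ b : A, (b : MulAut S) y
        rw [map_prod]
        exact Equiv.prod_comp (Equiv.mulLeft a) fun b : A => (b : MulAut S) y
    have hpow : y ^ Nat.card A ∈ T := by
      have h2 : (∏ a : A, y⁻¹ * (a : MulAut S) y) ∈ T := T.prod_mem fun a _ => hfoc a
      have h3 := T.mul_mem (T.inv_mem h2) hN
      have e : (∏ a : A, y⁻¹ * (a : MulAut S) y) = (y ^ Nat.card A)⁻¹ * N y := by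
        rw [Finset.prod_mul_distrib]
        simp [Nat.card_eq_fintype_card, N]
      rw [e, mul_inv_rev, inv_inv] at h3
      simpa [mul_comm, mul_left_comm] using h3
    obtain ⟨m, hm⟩ := hroot y
    have h4 := T.pow_mem hpow m
    rw [hm] at h4
    exact Subgroup.mem_subgroupOf.1 h4

end Cfsg.Agent.Fus
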