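import Cfsg.Agent.Fus.Saturation
import Mathlib.GroupTheory.SpecificGroups.Dihedral
import Mathlib.GroupTheory.SpecificGroups.Quaternion
import Mathlib.FieldTheory.Finite.Basic

set_option autoImplicit false

/-! Automorphism groups of dihedral and quaternion 2-groups are 2-groups. -/

namespace Cfsg.Agent.Fus

theorem pow_totient_two_pow {j : ℕ} (hj : 1 ≤ j) (u : (ZMod (2 ^ j))ˣ) : u ^ 2 ^ (j - 1) = 1 := by
  have : NeZero (2 ^ j) := ⟨by positivity⟩
  have h := ZMod.pow_totient u
  rw [Nat.totient_prime_pow Nat.prime_two (by omega)] at h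
  simpa using h

theorem isPGroup_mulAut_dihedral {j : ℕ} (hj : 2 ≤ j) : IsPGroup 2 (MulAut (DihedralGroup (2 ^ j))) := by
  let m := 2 ^ j
  have : NeZero m := ⟨by positivity⟩
  have hm : 4 ≤ m := by
    calc 4 = 2 ^ 2 := rfl
      _ ≤ 2 ^ j := Nat.pow_le_pow_right (by norm_num) hj
  have hr : ∀ φ : MulAut (DihedralGroup m), ∃ a, ∀ i, φ (DihedralGroup.r i) = DihedralGroup.r (i * a) := by
    intro φ
    rcases h : φ (DihedralGroup.r 1) with a | b
    · refine ⟨a, fun i => ?_⟩
      rw [← ZMod.natCast_zmod_val i, ← DihedralGroup.r_one_pow, map_pow, h, DihedralGroup.r_pow, mul_comm]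
    · have h1 := congrArg orderOf h
      rw [MulEquiv.orderOf_eq, DihedralGroup.orderOf_r_one, DihedralGroup.orderOf_sr] at h1
      omega
  choose a ha using hr
  have ha1 : ∀ φ, φ (DihedralGroup.r 1) = DihedralGroup.r (a φ) := fun φ => by rw [ha, one_mul]
  have hone : a 1 = 1 := (DihedralGroup.r.inj ((ha1 1).symm.trans rfl) :)
  let f : MulAut (DihedralGroup m) →* ZMod m :=
    { toFun := a, map_one' := hone,
      map_mul' := fun φ ψ => by
        have := ha1 (φ * ψ)
        rw [MulAut.mul_apply, ha1 ψ, ha φ] at this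
        rw [← DihedralGroup.r.inj this, mul_comm] }
  refine fun (φ : MulAut (DihedralGroup m)) => ?_
  let ψ : MulAut (DihedralGroup m) := φ ^ 2 ^ (j - 1)
  have hψ : a ψ = 1 := by
    have h1 := congrArg Units.val (pow_totient_two_pow (by omega) (f.toHomUnits φ))
    rw [← map_pow, MonoidHom.coe_toHomUnits] at h1
    exact h1
  have hψr : ∀ i, ψ (DihedralGroup.r i) = DihedralGroup.r i := fun i => by rw [ha, hψ, mul_one]
  obtain ⟨b, hb⟩ : ∃ b, ψ (DihedralGroup.sr 0) = DihedralGroup.sr b := by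
    rcases h : ψ (DihedralGroup.sr 0) with c | b
    · exact absurd (ψ.injective (h.trans (hψr c).symm)) (by simp)
    · exact ⟨b, rfl⟩
  have hn : ∀ n : ℕ, (ψ ^ n) (DihedralGroup.sr 0) = DihedralGroup.sr ((n : ZMod m) * b) ∧
      ∀ i, (ψ ^ n) (DihedralGroup.r i) = DihedralGroup.r i := by
    intro n
    induction n with
    | zero => simp
    | succ n ih =>
      refine ⟨?_, fun i => by rw [pow_succ, MulAut.mul_apply, hψr, ih.2]⟩
      rw [pow_succ, MulAut.mul_apply, hb,
        show DihedralGroup.sr b = DihedralGroup.sr 0 * DihedralGroup.r b by simp,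
        map_mul, ih.1, ih.2, DihedralGroup.sr_mul_r]
      push_cast; ring_nf
  refine ⟨(j - 1) + j, ?_⟩
  rw [pow_add, pow_mul]
  obtain ⟨h0, hi⟩ := hn m
  refine MulEquiv.ext fun x => ?_
  show (ψ ^ m) x = x
  rcases x with i | i
  · exact hi i
  · rw [show DihedralGroup.sr i = DihedralGroup.sr 0 * DihedralGroup.r i by simp, map_mul, h0, hi]
    simp

theorem isPGroup_mulAut_quaternion {j : ℕ} (hj : 2 ≤ j) : IsPGroup 2 (MulAut (QuaternionGroup (2 ^ j))) := by
  let n := 2 ^ j
  have : NeZero n := ⟨by positivity⟩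
  have hm : 4 ≤ n := by
    calc 4 = 2 ^ 2 := rfl
      _ ≤ 2 ^ j := Nat.pow_le_pow_right (by norm_num) hj
  have apow : ∀ (c : ZMod (2 * n)) (k : ℕ), QuaternionGroup.a c ^ k = QuaternionGroup.a ((k : ZMod (2 * n)) * c) := by
    intro c k
    induction k with
    | zero => simp
    | succ k ih => rw [pow_succ, ih, QuaternionGroup.a_mul_a]; push_cast; ring_nf
  have hr : ∀ φ : MulAut (QuaternionGroup n), ∃ a, ∀ i, φ (QuaternionGroup.a i) = QuaternionGroup.a (i * a) := by
    intro φ
    rcases h : φ (QuaternionGroup.a 1) with a | b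
    · refine ⟨a, fun i => ?_⟩
      rw [← ZMod.natCast_zmod_val i, ← QuaternionGroup.a_one_pow, map_pow, h, apow]
    · have h1 := congrArg orderOf h
      rw [MulEquiv.orderOf_eq, QuaternionGroup.orderOf_a_one, QuaternionGroup.orderOf_xa] at h1
      omega
  choose a ha using hr
  have ha1 : ∀ φ, φ (QuaternionGroup.a 1) = QuaternionGroup.a (a φ) := fun φ => by rw [ha, one_mul]
  have hone : a 1 = 1 := (QuaternionGroup.a.inj ((ha1 1).symm.trans rfl) :)
  let f : MulAut (QuaternionGroup n) →* ZMod (2 * n) :=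
    { toFun := a, map_one' := hone,
      map_mul' := fun φ ψ => by
        have := ha1 (φ * ψ)
        rw [MulAut.mul_apply, ha1 ψ, ha φ] at this
        exact (QuaternionGroup.a.inj this).symm.trans (mul_comm _ _) }
  refine fun (φ : MulAut (QuaternionGroup n)) => ?_
  let ψ : MulAut (QuaternionGroup n) := φ ^ 2 ^ j
  have h2n : 2 * n = 2 ^ (j + 1) := by rw [pow_succ]; exact mul_comm _ _
  have hu : ∀ u : (ZMod (2 * n))ˣ, u ^ 2 ^ j = 1 := by
    rw [h2n]
    exact fun u => pow_totient_two_pow (Nat.le_add_left 1 j) u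
  have hψ : a ψ = 1 := by
    have h1 := congrArg Units.val (hu (f.toHomUnits φ))
    rw [← map_pow, MonoidHom.coe_toHomUnits] at h1
    exact h1
  have hψr : ∀ i, ψ (QuaternionGroup.a i) = QuaternionGroup.a i := fun i => by rw [ha, hψ, mul_one]
  obtain ⟨b, hb⟩ : ∃ b, ψ (QuaternionGroup.xa 0) = QuaternionGroup.xa b := by
    rcases h : ψ (QuaternionGroup.xa 0) with c | b
    · exact absurd (ψ.injective (h.trans (hψr c).symm)) (by simp)
    · exact ⟨b, rfl⟩
  have hn : ∀ k : ℕ, (ψ ^ k) (QuaternionGroup.xa 0) = QuaternionGroup.xa ((k : ZMod (2 * n)) * b) ∧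
      ∀ i, (ψ ^ k) (QuaternionGroup.a i) = QuaternionGroup.a i := by
    intro k
    induction k with
    | zero => simp
    | succ k ih =>
      refine ⟨?_, fun i => by rw [pow_succ, MulAut.mul_apply, hψr, ih.2]⟩
      rw [pow_succ, MulAut.mul_apply, hb,
        show QuaternionGroup.xa b = QuaternionGroup.xa 0 * QuaternionGroup.a b by simp,
        map_mul, ih.1, ih.2, QuaternionGroup.xa_mul_a]
      push_cast; ring_nf
  refine ⟨j + (j + 1), ?_⟩
  rw [pow_add, pow_mul, ← h2n]
  obtain ⟨h0, hi⟩ := hn (2 * n)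
  refine MulEquiv.ext fun x => ?_
  show (ψ ^ (2 * n)) x = x
  rcases x with i | i
  · exact hi i
  · rw [show QuaternionGroup.xa i = QuaternionGroup.xa 0 * QuaternionGroup.a i by simp, map_mul, h0, hi,
      ZMod.natCast_self]
    simp

open Cfsg in
theorem autGroup_eq_inn_of_isPGroup {Ω : Type*} [Group Ω] {S : Subgroup Ω} [Finite S] {p : ℕ} [Fact p.Prime]
    (hS : IsPGroup p S) {F : FusionSystem S} (hF : F.IsSaturated p) (hA : IsPGroup p (MulAut S)) :
    F.autGroup S = Inn ↥S := by
  have h := (isFullyAutomized_iff.1 (fullyNormalized_props hS hF isFullyNormalized_top).2).2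
  refine (le_antisymm ?_ (inn_le_autGroup le_rfl))
  rw [inn_eq_autInducedBy]
  obtain ⟨k, hk⟩ := IsPGroup.iff_card.1 (hA.to_subgroup (F.autGroup S))
  refine (Subgroup.eq_of_le_of_card_ge (autInducedBy_le_autGroup le_rfl le_rfl) ?_).ge
  rw [h, hk, Nat.Prime.factorization_pow Fact.out, Finsupp.single_eq_same]

end Cfsg.Agent.Fus
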