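import Cfsg.Agent.Fus.InnerAbelian

set_option autoImplicit false

/-! Abelian 2-groups with pairwise distinct invariants have 2-groups of automorphisms. -/

namespace Cfsg.Agent.Fus

theorem zmod_two_torsion {m : ℕ} (z : ZMod (2 ^ (m + 1))) (h : z + z = 0) : z = 0 ∨ z = (2 : ZMod (2 ^ (m + 1))) ^ m := by
  have hlt := ZMod.val_lt z
  have h1 : ((z.val + z.val : ℕ) : ZMod (2 ^ (m + 1))) = 0 := by
    push_cast [ZMod.natCast_zmod_val]; exact h
  rw [ZMod.natCast_eq_zero_iff] at h1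
  obtain ⟨c, hc⟩ := h1
  have hp2 : 2 ^ (m + 1) = 2 ^ m * 2 := pow_succ 2 m
  have hc2 : z.val = 2 ^ m * c := by
    have h3 : 2 ^ (m + 1) * c = 2 * (2 ^ m * c) := by rw [hp2]; ring
    omega
  have hc1 : c < 2 := by
    by_contra hcc
    have : 2 ^ m * 2 ≤ 2 ^ m * c := Nat.mul_le_mul_left _ (by omega)
    omega
  have hz : ((z.val : ℕ) : ZMod (2 ^ (m + 1))) = z := ZMod.natCast_zmod_val z
  rw [hc2] at hz
  interval_cases c
  · left; rw [← hz]; simp
  · right; rw [← hz]; simp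

variable {n : ℕ} (a : Fin n → ℕ)

theorem torsion_apply (ha1 : ∀ i, 1 ≤ a i) {v : (i : Fin n) → ZMod (2 ^ a i)} (h : v + v = 0) (i : Fin n) :
    v i = 0 ∨ v i = (2 : ZMod (2 ^ a i)) ^ (a i - 1) := by
  obtain ⟨m, hm⟩ : ∃ m, a i = m + 1 := ⟨a i - 1, by have := ha1 i; omega⟩
  have h2 := congrFun h i
  have gen : ∀ N : ℕ, N = m + 1 → ∀ z : ZMod (2 ^ N), z + z = 0 → z = 0 ∨ z = (2 : ZMod (2 ^ N)) ^ (N - 1) := by
    rintro N rfl z hz
    simpa using zmod_two_torsion z hz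
  exact gen _ hm _ h2

theorem layer_step (ha : Function.Injective a) (ha1 : ∀ i, 1 ≤ a i) (j : ℕ)
    (x y : Multiplicative ((i : Fin n) → ZMod (2 ^ a i))) (hx2 : x ^ 2 = 1) (hy2 : y ^ 2 = 1)
    (hx : ∃ u, u ^ 2 ^ j = x) (hy : ∃ u, u ^ 2 ^ j = y) (hx' : ¬ ∃ u, u ^ 2 ^ (j + 1) = x)
    (hy' : ¬ ∃ u, u ^ 2 ^ (j + 1) = y) : ∃ u, u ^ 2 ^ (j + 1) = x⁻¹ * y := by
  have tor : ∀ w : Multiplicative ((i : Fin n) → ZMod (2 ^ a i)), w ^ 2 = 1 →
      w.toAdd + w.toAdd = 0 := fun w hw => by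
    rw [← two_nsmul, ← toAdd_pow, hw, toAdd_one]
  have div : ∀ w : Multiplicative ((i : Fin n) → ZMod (2 ^ a i)), w ^ 2 = 1 → (∃ u, u ^ 2 ^ j = w) →
      (∀ i, a i = j + 1 → w.toAdd i = 0) → ∃ u, u ^ 2 ^ (j + 1) = w := by
    intro w hw ⟨u, hu⟩ h0
    refine ⟨Multiplicative.ofAdd fun i => if w.toAdd i = 0 then 0 else (2 : ZMod (2 ^ a i)) ^ (a i - 1 - (j + 1)), ?_⟩
    apply Multiplicative.toAdd.injective
    rw [toAdd_pow, toAdd_ofAdd]
    funext i
    rw [Pi.smul_apply]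
    by_cases hi : w.toAdd i = 0
    · rw [if_pos hi, nsmul_zero, hi]
    · rw [if_neg hi]
      have hbig : j + 2 ≤ a i := by
        by_contra hlt
        rcases Nat.lt_or_ge j (a i) with h | h
        · exact hi (h0 i (by omega))
        · apply hi
          rw [← hu, toAdd_pow, Pi.smul_apply, nsmul_eq_mul]
          have : (((2 ^ j : ℕ)) : ZMod (2 ^ a i)) = 0 :=
            (ZMod.natCast_eq_zero_iff _ _).2 (pow_dvd_pow 2 h)
          rw [this, zero_mul]
      rw [(torsion_apply a ha1 (tor w hw) i).resolve_left hi, nsmul_eq_mul, Nat.cast_pow, Nat.cast_ofNat, ← pow_add]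
      congr 1
      omega
  obtain ⟨i, hi, hxi⟩ : ∃ i, a i = j + 1 ∧ x.toAdd i ≠ 0 := by
    by_contra h
    simp only [not_exists, not_and, not_not] at h
    exact hx' (div x hx2 hx h)
  obtain ⟨i', hi', hyi⟩ : ∃ i, a i = j + 1 ∧ y.toAdd i ≠ 0 := by
    by_contra h
    simp only [not_exists, not_and, not_not] at h
    exact hy' (div y hy2 hy h)
  obtain rfl := ha (hi'.trans hi.symm)
  refine div _ (by rw [mul_pow, inv_pow, hx2, hy2, inv_one, one_mul]) ?_ fun l hl => ?_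
  · obtain ⟨u, hu⟩ := hx
    obtain ⟨w, hw⟩ := hy
    exact ⟨u⁻¹ * w, by rw [mul_pow, inv_pow, hu, hw]⟩
  · obtain rfl := ha (hl.trans hi'.symm)
    rw [toAdd_mul, toAdd_inv, Pi.add_apply, Pi.neg_apply, (torsion_apply a ha1 (tor x hx2) l).resolve_left hxi,
      (torsion_apply a ha1 (tor y hy2) l).resolve_left hyi, neg_add_cancel]

theorem exists_pow_two_of_distinct (ha : Function.Injective a) (ha1 : ∀ i, 1 ≤ a i)
    (γ : MulAut (Multiplicative ((i : Fin n) → ZMod (2 ^ a i)))) : ∃ e, γ ^ 2 ^ e = 1 := by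
  have : Fact (Nat.Prime 2) := ⟨Nat.prime_two⟩
  have : ∀ i, NeZero (2 ^ a i) := fun i => ⟨by positivity⟩
  let T := Multiplicative ((i : Fin n) → ZMod (2 ^ a i))
  let k := (∑ i, a i) + 1
  have hexp : ∀ x : T, x ^ 2 ^ k = 1 := fun x => by
    apply Multiplicative.toAdd.injective
    rw [toAdd_pow, toAdd_one]
    funext i
    rw [Pi.smul_apply, nsmul_eq_mul, Pi.zero_apply]
    have hle : a i ≤ k := (Finset.single_le_sum (fun j _ => Nat.zero_le (a j)) (Finset.mem_univ i)).trans (Nat.le_succ _)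
    rw [(ZMod.natCast_eq_zero_iff _ _).2 (pow_dvd_pow 2 hle), zero_mul]
  have hT : IsPGroup 2 T := fun x => ⟨k, hexp x⟩
  let W : ℕ → Subgroup T := fun j => (powMonoidHom 2 : T →* T).ker ⊓ (powMonoidHom (2 ^ j) : T →* T).range
  have memW : ∀ j x, x ∈ W j ↔ x ^ 2 = 1 ∧ ∃ u, u ^ 2 ^ j = x := fun j x => Iff.rfl
  have invW : ∀ j x, x ∈ W j → γ x ∈ W j := by
    intro j x hx
    obtain ⟨h2, u, hu⟩ := (memW j x).1 hx
    exact (memW j _).2 ⟨by rw [← map_pow, h2, map_one], γ u, by rw [← map_pow, hu]⟩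
  have invW' : ∀ j x, γ x ∈ W j → x ∈ W j := by
    intro j x hx
    obtain ⟨h2, u, hu⟩ := (memW j _).1 hx
    refine (memW j x).2 ⟨γ.injective (by rw [map_pow, h2, map_one]), γ.symm u, ?_⟩
    rw [← map_pow, hu, MulEquiv.symm_apply_apply]
  have step : ∀ j x, x ∈ W j → x⁻¹ * γ x ∈ W (j + 1) := by
    intro j x hx
    by_cases h : x ∈ W (j + 1)
    · exact (W (j + 1)).mul_mem ((W (j + 1)).inv_mem h) (invW _ _ h)
    · have hg : γ x ∉ W (j + 1) := fun hh => h (invW' _ _ hh)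
      obtain ⟨h2, hu⟩ := (memW j x).1 hx
      obtain ⟨g2, gu⟩ := (memW j _).1 (invW j x hx)
      refine (memW _ _).2 ⟨by rw [mul_pow, inv_pow, h2, g2, inv_one, one_mul],
        layer_step a ha ha1 j x (γ x) h2 g2 hu gu (fun hh => h ((memW _ _).2 ⟨h2, hh⟩))
          (fun hh => hg ((memW _ _).2 ⟨g2, hh⟩))⟩
  have hWk : W k = ⊥ := by
    rw [Subgroup.eq_bot_iff_forall]
    intro x hx
    obtain ⟨-, u, hu⟩ := (memW k x).1 hx
    rw [← hu, hexp]
  let D : ℕ → Subgroup T := fun m => (W (k - m % k)).comap (powMonoidHom (2 ^ (m / k)))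
  have memD : ∀ m x, x ∈ D m ↔ x ^ 2 ^ (m / k) ∈ W (k - m % k) := fun m x => Iff.rfl
  have hk : 0 < k := Nat.succ_pos _
  refine exists_pow_eq_one_of_stab hT D ?_ (k * k) ?_ (fun m _ x hx => ?_) fun m _ x hx => ?_
  · rw [Subgroup.eq_bot_iff_forall]
    intro x hx
    rw [memD, Nat.zero_mod, Nat.zero_div, pow_zero, pow_one, Nat.sub_zero, hWk, Subgroup.mem_bot] at hx
    exact hx
  · rw [eq_top_iff]
    intro x _
    rw [memD, Nat.mul_div_cancel _ hk, hexp]
    exact Subgroup.one_mem _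
  · rw [memD] at hx ⊢
    rw [← map_pow]
    exact invW _ _ hx
  · rw [memD] at hx ⊢
    have hz : x ^ 2 ^ (m / k) ∈ W (k - m % k - 1) := by
      have hmk := Nat.mod_lt m hk
      by_cases hlast : m % k + 1 = k
      · have e1 : (m + 1) % k = 0 := by
          rw [Nat.add_mod, ← Nat.mod_mod_of_dvd m (dvd_refl k)]
          rcases Nat.lt_or_ge 1 k with h1 | h1
          · rw [Nat.mod_eq_of_lt h1, Nat.mod_mod, hlast, Nat.mod_self]
          · have : k = 1 := by omega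
            simp [this, Nat.mod_one]
        have e2 : (m + 1) / k = m / k + 1 := by
          have h1 := Nat.div_add_mod m k
          have h2 : m + 1 = k * (m / k + 1) := by rw [Nat.mul_add, Nat.mul_one]; omega
          rw [h2, Nat.mul_div_cancel_left _ hk]
        rw [e1, e2, Nat.sub_zero, hWk, Subgroup.mem_bot, pow_succ, pow_mul] at hx
        have e3 : k - m % k - 1 = 0 := by omega
        rw [e3]
        exact (memW 0 _).2 ⟨hx, _, pow_one _⟩
      · have h1 := Nat.div_add_mod m k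
        have hd : k ∣ m - m % k := ⟨m / k, by omega⟩
        have e12 : (m + 1) % k = m % k + 1 ∧ (m + 1) / k = m / k :=
          have h3 := Nat.div_mod_unique (a := m + 1) (b := k) (d := m / k) (c := m % k + 1) hk
          (h3.2 ⟨by omega, by omega⟩).symm
        rw [e12.1, e12.2, ← Nat.sub_sub] at hx
        exact hx
    have := step _ _ hz
    rw [show k - m % k - 1 + 1 = k - m % k by have := Nat.mod_lt m hk; omega] at this
    rw [mul_pow, inv_pow, ← map_pow]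
    exact this

open Cfsg Cfsg.FusionSystem in
theorem inner_of_distinct {Ω : Type*} [Group Ω] {S : Subgroup Ω} [Finite S] (ha : Function.Injective a)
    (ha1 : ∀ i, 1 ≤ a i) (e : S ≃* Multiplicative ((i : Fin n) → ZMod (2 ^ a i))) (F : FusionSystem S)
    (hF : F.IsSaturated 2) (P : Subgroup Ω) : F.Hom P = (innerFusionSystem S).Hom P := by
  have : Fact (Nat.Prime 2) := ⟨Nat.prime_two⟩
  have hS : IsPGroup 2 S := by
    refine fun x => ⟨(∑ i, a i), ?_⟩
    apply e.injective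
    rw [map_pow, map_one]
    apply Multiplicative.toAdd.injective
    rw [toAdd_pow, toAdd_one]
    funext i
    rw [Pi.smul_apply, nsmul_eq_mul, Pi.zero_apply,
      (ZMod.natCast_eq_zero_iff _ _).2 (pow_dvd_pow 2 (Finset.single_le_sum (fun j _ => Nat.zero_le (a j))
        (Finset.mem_univ i))), zero_mul]
  have hab : ∀ x ∈ S, ∀ y ∈ S, x * y = y * x := fun x hx y hy => by
    have : e ((⟨x, hx⟩ : S) * ⟨y, hy⟩) = e (⟨y, hy⟩ * ⟨x, hx⟩) := by rw [map_mul, map_mul, mul_comm]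
    exact congrArg Subtype.val (e.injective this)
  have hnd := isPGroup'_autGroup hS hF hab
  have htriv : ∀ α ∈ F.autGroup S, α = 1 := by
    intro α hα
    obtain ⟨j, hj⟩ := exists_pow_two_of_distinct a ha ha1 (MulAut.congr e α)
    have h1 : (⟨α, hα⟩ : F.autGroup S) ^ 2 ^ j = 1 := by
      apply Subtype.ext
      apply (MulAut.congr e).injective
      show MulAut.congr e (α ^ 2 ^ j) = MulAut.congr e 1
      rw [map_pow, map_one, hj]
    have h2 : (⟨α, hα⟩ : F.autGroup S) ^ Nat.card (F.autGroup S) = 1 := pow_card_eq_one'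
    have h3 := (pow_gcd_eq_one (a := (⟨α, hα⟩ : F.autGroup S))).2 ⟨h1, h2⟩
    rw [(Nat.Coprime.pow_left j ((Nat.Prime.coprime_iff_not_dvd Nat.prime_two).2 hnd)).gcd_eq_one, pow_one] at h3
    exact congrArg Subtype.val h3
  have hSn := isNormal_of_stronglyClosed_abelian hS hF
    (⟨le_rfl, fun R _ φ hφ x => hom_apply_mem hφ x⟩ : F.StronglyClosed S) hab
  refine Set.Subset.antisymm (fun φ hφ => ?_) ?_
  · obtain ⟨α, hα, h⟩ := hom_eq_normalizerHom hSn hφ
    refine (inner_hom_iff_of_comm hab).2 ⟨hom_le hφ, fun x => ?_⟩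
    rw [← h x (hom_le hφ x.2), htriv α hα]; rfl
  · rintro φ ⟨hP, g, hg, h⟩
    exact conj_mem' hP hg h

end Cfsg.Agent.Fus
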