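import Cfsg.Agent.Fus.Normal
import Cfsg.Agent.Fus.Alperin

set_option autoImplicit false

/-! A subgroup is normal iff its inner system is weakly normal. -/

namespace Cfsg.Agent.Fus

open Cfsg Cfsg.FusionSystem

variable {Ω : Type*} [Group Ω] {S : Subgroup Ω} {F : FusionSystem S}

theorem innerFusionSystem_saturated {p : ℕ} [Fact p.Prime] {T : Subgroup Ω} [Finite T] (hT : IsPGroup p T) :
    (innerFusionSystem T).IsSaturated p := by
  intro P hP
  refine ⟨P, isConj_refl hP, ⟨hP, ?_⟩, hP, fun P' φ hφ _ => ?_⟩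
  · have hle : (innerFusionSystem T).autGroup P ≤ autInducedBy T P := by
      intro α hα
      obtain ⟨-, g, hg, h⟩ := (mem_autGroup hP).1 hα
      exact mem_autInducedBy.2 ⟨g, hg, fun x => h x⟩
    have hp : IsPGroup p ((innerFusionSystem T).autGroup P) := (isPGroup_autInducedBy hT le_rfl P).to_le hle
    have hpt : IsPGroup p (⊤ : Subgroup ((innerFusionSystem T).autGroup P)) := hp.to_subgroup _
    obtain ⟨R, hR⟩ := hpt.exists_le_sylow
    refine ⟨R, ?_⟩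
    rw [top_le_iff.1 hR, Subgroup.subgroupOf_eq_top.2 hle]
  · obtain ⟨-, g, hg, h⟩ := hφ
    have hE : extender T P' φ ≤ T := extender_le_normalizerIn.trans inf_le_left
    exact ⟨conjHom _ g, FusionSystem.conj_mem _ hE hg, fun x hx _ => (h ⟨x, hx⟩).symm⟩

theorem normal_iff_inner_weaklyNormal [Finite S] {p : ℕ} [Fact p.Prime] (hS : IsPGroup p S) (hF : F.IsSaturated p)
    {Q : Subgroup Ω} (hQ : Q ≤ S) : F.IsNormal Q ↔ (innerFusionSystem Q).IsWeaklyNormalIn F p := by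
  constructor
  · intro h
    have : Finite Q := finite_le hQ
    have hext := extProp_of_normal h
    refine ⟨innerFusionSystem_saturated (hS.to_le hQ), hF, ?_, ?_, ?_, ?_⟩
    · rintro P φ ⟨hP, g, hg, hh⟩
      exact conj_mem' (hP.trans hQ) (hQ hg) hh
    · refine ⟨hQ, fun R hR φ hφ x => ?_⟩
      obtain ⟨α, -, hα⟩ := hext R hR φ hφ
      rw [← hα x]; exact (α _).2
    · rintro P hPQ φ ⟨-, g, hg, hh⟩ α -
      refine ⟨conjHom _ ((α ⟨g, hg⟩ : Q) : Ω), FusionSystem.conj_mem _ ?_ (α ⟨g, hg⟩).2, fun x hφx hαx => ?_⟩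
      · rintro y ⟨z, -, rfl⟩; exact (α z).2
      · have e : (⟨φ x, hφx⟩ : Q) = ⟨g, hg⟩ * ⟨x, hPQ x.2⟩ * ⟨g, hg⟩⁻¹ := Subtype.ext (hh x)
        rw [e, map_mul, map_mul, map_inv]
        rfl
    · intro P hP φ hφ
      obtain ⟨α, hα, h'⟩ := hext P hP φ hφ
      exact ⟨α, hα, P.subtype, ⟨hP, 1, Q.one_mem, fun x => by simp⟩, fun x hx => (h' x).symm⟩
  · rintro ⟨-, -, -, hsc, -, hfr⟩
    refine (normal_iff_extProp hS hF hQ).2 fun P hP φ hφ => ?_
    obtain ⟨α, hα, φ₀, ⟨-, g, hg, hg'⟩, hh⟩ := hfr P hP φ hφ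
    refine ⟨α * MulAut.conj (⟨g, hg⟩ : Q), Subgroup.mul_mem _ hα (inn_le_autGroup hQ ⟨⟨g, hg⟩, rfl⟩), fun x => ?_⟩
    have hm : φ₀ x ∈ Q := by
      rw [hg' x]; exact Q.mul_mem (Q.mul_mem hg (hP x.2)) (Q.inv_mem hg)
    rw [hh x hm]
    exact congrArg (fun z => ((α z : Q) : Ω)) (Subtype.ext (hg' x).symm)

end Cfsg.Agent.Fus
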