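import Cfsg.Agent.Fus.Dihedral
import Cfsg.Agent.Fus.Simple
import Cfsg.Agent.Classical.SL
import Mathlib.FieldTheory.IsAlgClosed.AlgebraicClosure

set_option autoImplicit false

/-! `PSL(2,q)`, `q` odd: dihedral Sylow 2-subgroup, one class of involutions. -/

namespace Cfsg.Agent.Fus

open Matrix

variable {F : Type*} [Field F] [Fintype F]

theorem two_ne_zero_of_odd (hodd : Fintype.card F % 2 = 1) : (2 : F) ≠ 0 := by
  intro h
  have h2 : ringChar F = 2 := by
    have := ringChar.dvd (show ((2 : ℕ) : F) = 0 by exact_mod_cast h)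
    exact ((Nat.dvd_prime Nat.prime_two).1 this).resolve_left (CharP.ringChar_ne_one (R := F))
  have := FiniteField.even_card_of_char_two h2
  omega

theorem exists_sq_add_sq_eq (hodd : Fintype.card F % 2 = 1) (c : F) : ∃ a b : F, a ^ 2 + b ^ 2 = c := by
  open Polynomial in
  obtain ⟨a, b, h⟩ := FiniteField.exists_root_sum_quadratic (f := (X : F[X]) ^ 2) (g := X ^ 2 - C c)
    (degree_X_pow 2) (degree_X_pow_sub_C (by norm_num) c) hodd
  refine ⟨a, b, ?_⟩
  simp at h
  linear_combination h

theorem exists_dihedral_hom {G : Type*} [Group G] {m : ℕ} [NeZero m] {R W : G} (hR : orderOf R = m)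
    (hm : 3 ≤ m) (hW : W * W = 1) (hWR : W * R = R⁻¹ * W) :
    ∃ f : DihedralGroup m →* G, Function.Injective f := by
  let e : ZMod m → G := fun i => R ^ i.val
  have eadd : ∀ i j, e (i + j) = e i * e j := fun i j => by
    show R ^ _ = R ^ _ * R ^ _
    rw [← pow_add, pow_eq_pow_iff_modEq, hR, ZMod.val_add]
    exact Nat.mod_modEq _ _
  have e0 : e 0 = 1 := by simp [e]
  have eneg : ∀ i, e (-i) = (e i)⁻¹ := fun i => by
    rw [eq_inv_iff_mul_eq_one, ← eadd, neg_add_cancel, e0]
  have eW : ∀ i, W * e i = e (-i) * W := by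
    intro i
    have h : ∀ n : ℕ, W * R ^ n = (R ^ n)⁻¹ * W := by
      intro n
      induction n with
      | zero => simp
      | succ n ih => rw [pow_succ, ← mul_assoc, ih, mul_assoc, hWR]; group
    rw [eneg]; exact h _
  let f : DihedralGroup m →* G :=
    MonoidHom.mk' (fun x => match x with
      | DihedralGroup.r i => e i
      | DihedralGroup.sr i => W * e i) (by
      rintro (i | i) (j | j)
      · show e (i + j) = e i * e j
        exact eadd i j
      · show W * e (j - i) = e i * (W * e j)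
        rw [sub_eq_neg_add, eadd, ← mul_assoc, eW, neg_neg, mul_assoc]
      · show W * e (i + j) = W * e i * e j
        rw [eadd, mul_assoc]
      · show e (j - i) = W * e i * (W * e j)
        rw [eW, mul_assoc, ← mul_assoc W W, hW, one_mul, ← eadd, sub_eq_neg_add])
  refine ⟨f, (injective_iff_map_eq_one f).2 ?_⟩
  rintro (i | i) h
  · have h' : R ^ i.val = R ^ 0 := h.trans (pow_zero R).symm
    rw [pow_eq_pow_iff_modEq, hR] at h'
    have : i.val = 0 := Nat.eq_zero_of_dvd_of_lt (Nat.modEq_zero_iff_dvd.1 h') (ZMod.val_lt i)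
    rw [(ZMod.val_eq_zero i).1 this]; rfl
  · have hW' : W = e (-i) := by rw [eneg]; exact eq_inv_of_mul_eq_one_left h
    have hcomm : W * R = R * W := by
      rw [hW']; exact ((Commute.refl R).pow_left _).eq
    have hR2 : R ^ 2 = 1 := by
      have h1 : R * W = R⁻¹ * W := hcomm.symm.trans hWR
      rw [pow_two]
      exact eq_inv_iff_mul_eq_one.1 (mul_right_cancel h1)
    have h2 := orderOf_le_of_pow_eq_one (by norm_num) hR2
    omega

/-- A parametrised circle point of 2-power order. -/
theorem exists_torus_point (hodd : Fintype.card F % 2 = 1) (h16 : 16 ∣ Fintype.card F ^ 2 - 1) :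
    ∃ (k : ℕ) (r : Matrix.SpecialLinearGroup (Fin 2) F) (a b : F), 3 ≤ k ∧ (r : Matrix (Fin 2) (Fin 2) F) = !![a, -b; b, a] ∧
      r ^ 2 ^ (k - 1) ∈ Subgroup.center _ ∧ r ^ 2 ^ (k - 2) ∉ Subgroup.center _ ∧
      (Nat.card (ProjectiveSpecialLinearGroup (Fin 2) F)).factorization 2 = k := by
  let q := Fintype.card F
  have h2F := two_ne_zero_of_odd hodd
  have h2 : (2 : (AlgebraicClosure F)) ≠ 0 := by
    rw [← map_ofNat (algebraMap F (AlgebraicClosure F)) 2]
    exact fun h => h2F ((algebraMap F (AlgebraicClosure F)).injective (h.trans (map_zero _).symm))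
  obtain ⟨i, hi⟩ := IsAlgClosed.exists_pow_nat_eq (-1 : (AlgebraicClosure F)) (n := 2) (by norm_num)
  have hi0 : i ≠ 0 := by rintro rfl; simp at hi
  -- `N` is the one of `q ∓ 1` divisible by 8
  obtain ⟨p, hp⟩ := CharP.exists F
  obtain ⟨f, hpp, hqf⟩ := FiniteField.card F p
  have : Fact p.Prime := ⟨hpp⟩
  have : CharP (AlgebraicClosure F) p := charP_of_injective_algebraMap (algebraMap F (AlgebraicClosure F)).injective p
  have : ExpChar (AlgebraicClosure F) p := ExpChar.prime hpp
  have frob_add : ∀ x y : (AlgebraicClosure F), (x + y) ^ q = x ^ q + y ^ q := fun x y => by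
    show (x + y) ^ Fintype.card F = _
    rw [hqf]; rw [add_pow_expChar_pow]
    simp only [q, hqf]
  have hfix : ∀ z : (AlgebraicClosure F), z ^ q = z → ∃ a : F, algebraMap F (AlgebraicClosure F) a = z := by
    intro z hz
    open Polynomial in
    have hroots : ((X : F[X]) ^ q - X).roots.map (algebraMap F (AlgebraicClosure F)) = (((X : F[X]) ^ q - X).map (algebraMap F (AlgebraicClosure F))).roots := by
      refine roots_map_of_injective_of_card_eq_natDegree (algebraMap F (AlgebraicClosure F)).injective ?_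
      rw [FiniteField.roots_X_pow_card_sub_X, FiniteField.X_pow_card_sub_X_natDegree_eq _ Fintype.one_lt_card]
      rfl
    open Polynomial in
    have hz' : z ∈ (((X : F[X]) ^ q - X).map (algebraMap F (AlgebraicClosure F))).roots := by
      rw [mem_roots']
      refine ⟨Polynomial.map_ne_zero (FiniteField.X_pow_card_sub_X_ne_zero _ Fintype.one_lt_card), ?_⟩
      simp [hz]
    rw [← hroots, Multiset.mem_map] at hz'
    obtain ⟨a, -, ha⟩ := hz'
    exact ⟨a, ha⟩
  have hq1 : 1 < q := Fintype.one_lt_card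
  have hodd' : q % 2 = 1 := hodd
  obtain ⟨s, hs⟩ : ∃ s, q = 2 * s + 1 := ⟨q / 2, by omega⟩
  have hiq : i ^ q = (-1) ^ s * i := by
    rw [hs, pow_succ, pow_mul, hi]
  -- choose `N`, `M`
  obtain ⟨N, M, hN0, hM, hMN, hNq⟩ : ∃ N M : ℕ, N ≠ 0 ∧ M % 4 = 2 ∧ N * M = q ^ 2 - 1 ∧
      ((N = q - 1 ∧ M = q + 1 ∧ Even s) ∨ (N = q + 1 ∧ M = q - 1 ∧ Odd s)) := by
    have e : q ^ 2 - 1 = (q + 1) * (q - 1) := by
      simpa using Nat.sq_sub_sq q 1
    rcases Nat.even_or_odd s with h | h
    · obtain ⟨u, hu⟩ := h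
      exact ⟨q - 1, q + 1, by omega, by omega, by rw [e, mul_comm], Or.inl ⟨rfl, rfl, ⟨u, hu⟩⟩⟩
    · obtain ⟨u, hu⟩ := h
      exact ⟨q + 1, q - 1, by omega, by omega, by rw [e], Or.inr ⟨rfl, rfl, ⟨u, hu⟩⟩⟩
  let k := N.factorization 2
  have hM' : (M / 2) % 2 = 1 := by omega
  have hk : 3 ≤ k := by
    refine (Nat.prime_two.pow_dvd_iff_le_factorization hN0).1 ?_
    have h8 : 2 ^ 3 ∣ N * (M / 2) := by
      refine Nat.dvd_of_mul_dvd_mul_left (show 0 < 2 by norm_num) ?_
      rw [show 2 * (N * (M / 2)) = N * M by rw [mul_left_comm]; congr 1; omega, hMN]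
      exact h16
    exact ((Nat.coprime_two_left.2 (Nat.odd_iff.2 hM')).pow_left 3).dvd_of_dvd_mul_right h8
  obtain ⟨z, hz⟩ := IsAlgClosed.exists_pow_nat_eq i (n := 2 ^ (k - 2)) (by positivity)
  have hz1 : z ^ 2 ^ (k - 1) = -1 := by
    rw [show k - 1 = k - 2 + 1 by omega, pow_succ, pow_mul, hz, hi]
  have hz2 : z ^ 2 ^ k = 1 := by
    rw [show k = k - 1 + 1 by omega, pow_succ, pow_mul, hz1, neg_one_sq]
  have hz0 : z ≠ 0 := by
    rintro rfl
    rw [zero_pow (by positivity)] at hz
    exact hi0 hz.symm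
  have hzN : z ^ N = 1 := orderOf_dvd_iff_pow_eq_one.1 ((orderOf_dvd_of_pow_eq_one hz2).trans (Nat.ordProj_dvd N 2))
  have h2q : (2 : (AlgebraicClosure F)) ^ q = 2 := by
    rw [← map_ofNat (algebraMap F (AlgebraicClosure F)) 2, ← map_pow, FiniteField.pow_card]
  have hfixa : ((z + z⁻¹) / 2) ^ q = (z + z⁻¹) / 2 ∧ ((z - z⁻¹) / (2 * i)) ^ q = (z - z⁻¹) / (2 * i) := by
    have hzq : (z ^ q = z ∧ i ^ q = i) ∨ (z ^ q = z⁻¹ ∧ i ^ q = -i) := by
      rcases hNq with ⟨rfl, -, hev⟩ | ⟨rfl, -, hod⟩
      · refine Or.inl ⟨?_, by rw [hiq, hev.neg_one_pow, one_mul]⟩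
        rw [show q = q - 1 + 1 by omega, pow_succ, hzN, one_mul]
      · refine Or.inr ⟨?_, by rw [hiq, hod.neg_one_pow]; ring⟩
        rw [pow_succ] at hzN
        exact eq_inv_of_mul_eq_one_left hzN
    have hsub : (z - z⁻¹) ^ q = z ^ q - (z⁻¹) ^ q := by
      rw [sub_eq_add_neg, frob_add, neg_pow, Odd.neg_one_pow ⟨s, hs⟩]; ring
    rw [div_pow, div_pow, frob_add, hsub, mul_pow, h2q, inv_pow]
    rcases hzq with ⟨e1, e2⟩ | ⟨e1, e2⟩ <;> rw [e1, e2]
    · exact ⟨rfl, rfl⟩
    · rw [inv_inv]
      exact ⟨by rw [add_comm], by rw [mul_neg, div_neg, ← neg_div, neg_sub]⟩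
  obtain ⟨a, ha⟩ := hfix _ hfixa.1
  obtain ⟨b, hb⟩ := hfix _ hfixa.2
  have hab : algebraMap F (AlgebraicClosure F) a + i * algebraMap F (AlgebraicClosure F) b = z := by
    rw [ha, hb]; field_simp; ring
  have hi2 : i * i = -1 := by rw [← sq, hi]
  have hdet : a * a + b * b = 1 := by
    apply (algebraMap F (AlgebraicClosure F)).injective
    rw [map_add, map_mul, map_mul, map_one, ha, hb]
    field_simp
    linear_combination ((z ^ 2 + 1) ^ 2 - 4 * z ^ 2) * hi2
  let r : Matrix.SpecialLinearGroup (Fin 2) F := ⟨!![a, -b; b, a], by rw [Matrix.det_fin_two_of]; linear_combination hdet⟩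
  have hpow : ∀ n : ℕ, ∃ c d : F, ((r ^ n : Matrix.SpecialLinearGroup (Fin 2) F) : Matrix (Fin 2) (Fin 2) F) = !![c, -d; d, c] ∧
      algebraMap F (AlgebraicClosure F) c + i * algebraMap F (AlgebraicClosure F) d = z ^ n := by
    intro n
    induction n with
    | zero => exact ⟨1, 0, by simp [Matrix.one_fin_two], by simp⟩
    | succ n ih =>
      obtain ⟨c, d, h1, h2'⟩ := ih
      refine ⟨c * a - d * b, c * b + d * a, ?_, ?_⟩
      · rw [pow_succ, Matrix.SpecialLinearGroup.coe_mul, h1]
        show !![c, -d; d, c] * !![a, -b; b, a] = _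
        rw [Matrix.mul_fin_two]
        congr! 1 <;> ring_nf
      · rw [pow_succ, ← h2', ← hab]
        simp only [map_sub, map_add, map_mul]
        linear_combination -(algebraMap F (AlgebraicClosure F) d * algebraMap F (AlgebraicClosure F) b) * hi2
  refine ⟨k, r, a, b, hk, rfl, ?_, ?_, ?_⟩
  · obtain ⟨c, d, h1, h2'⟩ := hpow (2 ^ (k - 1))
    rw [hz1] at h2'
    have hdet2 : c * c + d * d = 1 := by
      have := (r ^ 2 ^ (k - 1)).2
      rw [h1, Matrix.det_fin_two_of] at this
      linear_combination this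
    have hdetK : algebraMap F (AlgebraicClosure F) c * algebraMap F (AlgebraicClosure F) c + algebraMap F (AlgebraicClosure F) d * algebraMap F (AlgebraicClosure F) d = 1 := by
      rw [← map_mul, ← map_mul, ← map_add, hdet2, map_one]
    have h3 : algebraMap F (AlgebraicClosure F) c - i * algebraMap F (AlgebraicClosure F) d = -1 := by
      linear_combination (-1 : (AlgebraicClosure F)) * hdetK + (algebraMap F (AlgebraicClosure F) d * algebraMap F (AlgebraicClosure F) d) * hi2
        + (algebraMap F (AlgebraicClosure F) c - i * algebraMap F (AlgebraicClosure F) d) * h2'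
    have hd : d = 0 := by
      apply (algebraMap F (AlgebraicClosure F)).injective
      rw [map_zero]
      have : 2 * (i * algebraMap F (AlgebraicClosure F) d) = 0 := by linear_combination h2' - h3
      simpa [h2, hi0] using this
    have hc : c = -1 := by
      apply (algebraMap F (AlgebraicClosure F)).injective
      rw [map_neg, map_one, ← h2', hd, map_zero, mul_zero, add_zero]
    rw [Matrix.SpecialLinearGroup.mem_center_iff]
    refine ⟨-1, by simp, ?_⟩
    rw [h1, hd, hc]
    ext u v; fin_cases u <;> fin_cases v <;> simp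
  · obtain ⟨c, d, h1, h2'⟩ := hpow (2 ^ (k - 2))
    rw [Matrix.SpecialLinearGroup.mem_center_iff]
    rintro ⟨u, hu, hu'⟩
    rw [h1] at hu'
    have hd : 0 = d := by simpa using congrFun (congrFun hu' 1) 0
    have hc : u = c := by simpa using congrFun (congrFun hu' 0) 0
    rw [← hd, map_zero, mul_zero, add_zero, hz] at h2'
    have : c ^ 2 = 1 := by rw [← hc]; simpa using hu
    have h3 := congrArg (algebraMap F (AlgebraicClosure F)) this
    rw [map_pow, h2', hi, map_one] at h3
    exact h2 (by linear_combination (-1 : (AlgebraicClosure F)) * h3)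
  · have h1 : (q - 1) * Nat.card (Matrix.SpecialLinearGroup (Fin 2) F) = (q ^ 2 - 1) * (q ^ 2 - q) := by
      rw [Classical.card_SL_mul 2 (by norm_num)]
      simp [Fin.prod_univ_two, q]
    have h2' := Classical.card_PSL_mul (ι := Fin 2) (F := F)
    rw [Fintype.card_fin, Nat.gcd_eq_left (show 2 ∣ Fintype.card F - 1 by omega)] at h2'
    have h3 : q ^ 2 - q = (q - 1) * q := by rw [sq, Nat.sub_one_mul]
    rw [h3, ← h2', ← hMN] at h1
    have h4 : Nat.card (ProjectiveSpecialLinearGroup (Fin 2) F) = q * (M / 2) * N := by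
      apply Nat.eq_of_mul_eq_mul_left (show 0 < 2 * (q - 1) by omega)
      calc 2 * (q - 1) * Nat.card (ProjectiveSpecialLinearGroup (Fin 2) F)
          = (q - 1) * (2 * Nat.card (ProjectiveSpecialLinearGroup (Fin 2) F)) := by ring
        _ = N * M * ((q - 1) * q) := h1
        _ = N * (2 * (M / 2)) * ((q - 1) * q) := by congr 2; omega
        _ = _ := by ring
    have h5 : q * (M / 2) ≠ 0 := Nat.mul_ne_zero (by omega) (by omega)
    have h6 : (q * (M / 2)).factorization 2 = 0 := by
      refine Nat.factorization_eq_zero_of_not_dvd fun h => ?_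
      rcases Nat.prime_two.dvd_mul.1 h with h | h <;> omega
    rw [h4, Nat.factorization_mul h5 hN0, Finsupp.add_apply, h6, zero_add]

theorem exists_sylow_dihedral (hodd : Fintype.card F % 2 = 1) (h16 : 16 ∣ Fintype.card F ^ 2 - 1)
    (S : Sylow 2 (ProjectiveSpecialLinearGroup (Fin 2) F)) :
    ∃ j, 2 ≤ j ∧ Nonempty ((S : Subgroup (ProjectiveSpecialLinearGroup (Fin 2) F)) ≃* DihedralGroup (2 ^ j)) := by
  obtain ⟨k, r, a, b, hk, hr, hc1, hc2, hcard⟩ := exists_torus_point hodd h16
  obtain ⟨c, d, hcd⟩ := exists_sq_add_sq_eq hodd (-1)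
  let w : Matrix.SpecialLinearGroup (Fin 2) F := ⟨!![c, d; d, -c], by rw [Matrix.det_fin_two_of]; linear_combination -hcd⟩
  let π := QuotientGroup.mk' (Subgroup.center (Matrix.SpecialLinearGroup (Fin 2) F))
  have hw : w * w ∈ Subgroup.center (Matrix.SpecialLinearGroup (Fin 2) F) := by
    rw [Matrix.SpecialLinearGroup.mem_center_iff]
    refine ⟨-1, by simp, ?_⟩
    show _ = !![c, d; d, -c] * !![c, d; d, -c]
    rw [Matrix.mul_fin_two]
    ext u v; fin_cases u <;> fin_cases v <;> simp <;> first | ring1 | linear_combination -hcd | linear_combination hcd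
  have hwr : w * r = r⁻¹ * w := by
    apply Subtype.ext
    rw [Matrix.SpecialLinearGroup.coe_mul, Matrix.SpecialLinearGroup.coe_mul, Matrix.SpecialLinearGroup.coe_inv, hr]
    show !![c, d; d, -c] * !![a, -b; b, a] = Matrix.adjugate !![a, -b; b, a] * !![c, d; d, -c]
    rw [Matrix.adjugate_fin_two_of, Matrix.mul_fin_two, Matrix.mul_fin_two]
    congr! 1 <;> ring_nf
  have hord : orderOf (π r) = 2 ^ (k - 1) := by
    have := Fact.mk Nat.prime_two
    rw [show k - 1 = k - 2 + 1 by omega]
    refine orderOf_eq_prime_pow ?_ ?_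
    · rw [← map_pow, QuotientGroup.mk'_apply, QuotientGroup.eq_one_iff]; exact hc2
    · rw [← show k - 1 = k - 2 + 1 by omega, ← map_pow, QuotientGroup.mk'_apply, QuotientGroup.eq_one_iff]
      exact hc1
  have : NeZero (2 ^ (k - 1)) := ⟨by positivity⟩
  obtain ⟨f, hf⟩ := exists_dihedral_hom (W := π w) hord
    (le_trans (by norm_num) (Nat.pow_le_pow_right (show 0 < 2 by norm_num) (show 2 ≤ k - 1 by omega)))
    (by rw [← map_mul, QuotientGroup.mk'_apply, QuotientGroup.eq_one_iff]; exact hw)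
    (by rw [← map_mul, hwr, map_mul, map_inv])
  have hD : Nat.card f.range = 2 ^ (Nat.card (ProjectiveSpecialLinearGroup (Fin 2) F)).factorization 2 := by
    rw [← Nat.card_congr (MonoidHom.ofInjective hf).toEquiv, DihedralGroup.nat_card, hcard, ← pow_succ']
    congr 1; omega
  exact ⟨k - 1, by omega, ⟨(Sylow.equiv S (Sylow.ofCard f.range hD)).trans (MonoidHom.ofInjective hf).symm⟩⟩

theorem psl2_involutions_conj (hodd : Fintype.card F % 2 = 1) {t u : ProjectiveSpecialLinearGroup (Fin 2) F}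
    (ht : orderOf t = 2) (hu : orderOf u = 2) : ∃ g, g * t * g⁻¹ = u := by
  have h2 := two_ne_zero_of_odd hodd
  let J : Matrix.SpecialLinearGroup (Fin 2) F := ⟨!![0, -1; 1, 0], by simp [Matrix.det_fin_two_of]⟩
  let π := QuotientGroup.mk' (Subgroup.center (Matrix.SpecialLinearGroup (Fin 2) F))
  suffices key : ∀ t : ProjectiveSpecialLinearGroup (Fin 2) F, orderOf t = 2 → ∃ g, g * π J * g⁻¹ = t by
    obtain ⟨g, hg⟩ := key t ht
    obtain ⟨h, hh⟩ := key u hu
    exact ⟨h * g⁻¹, by rw [← hg, ← hh]; group⟩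
  intro t ht
  obtain ⟨x, rfl⟩ := QuotientGroup.mk'_surjective _ t
  have hxc : x ∉ Subgroup.center (Matrix.SpecialLinearGroup (Fin 2) F) := by
    intro h
    rw [QuotientGroup.mk'_apply, (QuotientGroup.eq_one_iff x).2 h, orderOf_one] at ht
    omega
  have hx2 : x * x ∈ Subgroup.center (Matrix.SpecialLinearGroup (Fin 2) F) := by
    rw [← QuotientGroup.eq_one_iff]
    have := pow_orderOf_eq_one ((QuotientGroup.mk' (Subgroup.center _)) x)
    rw [ht, sq, ← map_mul] at this
    exact this
  obtain ⟨a, b, c, d, hm⟩ : ∃ a b c d, (x : Matrix (Fin 2) (Fin 2) F) = !![a, b; c, d] :=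
    ⟨_, _, _, _, Matrix.eta_fin_two _⟩
  have hdet : a * d - b * c = 1 := by
    have := x.2; rwa [hm, Matrix.det_fin_two_of] at this
  rw [Matrix.SpecialLinearGroup.mem_center_iff] at hx2
  obtain ⟨e, he, he'⟩ := hx2
  rw [Matrix.SpecialLinearGroup.coe_mul, hm, Matrix.mul_fin_two] at he'
  have h00 : e = a * a + b * c := by simpa using congrFun (congrFun he' 0) 0
  have h01 : b * (a + d) = 0 := by
    have : 0 = a * b + b * d := by simpa using congrFun (congrFun he' 0) 1
    linear_combination -this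
  have h10 : c * (a + d) = 0 := by
    have : 0 = c * a + d * c := by simpa using congrFun (congrFun he' 1) 0
    linear_combination -this
  have h11 : e = c * b + d * d := by simpa using congrFun (congrFun he' 1) 1
  have hd : d = -a := by
    by_contra hne
    have hs : a + d ≠ 0 := fun h => hne (by linear_combination h)
    have hb : b = 0 := (mul_eq_zero.1 h01).resolve_right hs
    have hc : c = 0 := (mul_eq_zero.1 h10).resolve_right hs
    have had : a = d := by
      have : (a - d) * (a + d) = 0 := by linear_combination h11 - h00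
      exact sub_eq_zero.1 ((mul_eq_zero.1 this).resolve_right hs)
    apply hxc
    rw [Matrix.SpecialLinearGroup.mem_center_iff]
    refine ⟨a, ?_, ?_⟩
    · rw [Fintype.card_fin]; rw [hb, hc, ← had] at hdet; linear_combination hdet
    · rw [hm, hb, hc, ← had]
      ext u v; fin_cases u <;> fin_cases v <;> simp
  subst hd
  obtain ⟨s, t, hst⟩ : ∃ s t : F, c * s ^ 2 - 2 * a * s * t - b * t ^ 2 = 1 := by
    by_cases hc : c = 0
    · have ha : a ≠ 0 := fun h => by rw [hc, h] at hdet; simp at hdet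
      refine ⟨(1 + b) / (-(2 * a)), 1, ?_⟩
      subst hc
      field_simp
      ring
    · obtain ⟨u, v, huv⟩ := exists_sq_add_sq_eq hodd c
      refine ⟨(u + a * v) / c, v, ?_⟩
      field_simp
      linear_combination huv + v ^ 2 * hdet
  let P : Matrix.SpecialLinearGroup (Fin 2) F := ⟨!![s, a * s + b * t; t, c * s - a * t],
    by rw [Matrix.det_fin_two_of]; linear_combination hst⟩
  have hP : x * P = P * J := by
    apply Subtype.ext
    rw [Matrix.SpecialLinearGroup.coe_mul, Matrix.SpecialLinearGroup.coe_mul, hm]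
    show !![a, b; c, -a] * !![s, a * s + b * t; t, c * s - a * t] = !![s, a * s + b * t; t, c * s - a * t] * !![0, -1; 1, 0]
    rw [Matrix.mul_fin_two, Matrix.mul_fin_two]
    ext u v; fin_cases u <;> fin_cases v <;> simp <;>
      first | ring1 | linear_combination (-s) * hdet | linear_combination (-t) * hdet
  refine ⟨π P, ?_⟩
  rw [← map_inv, ← map_mul, ← map_mul, ← hP, mul_inv_cancel_right]

open Cfsg Cfsg.FusionSystem in
theorem psl2_isSimple (hodd : Fintype.card F % 2 = 1) (h16 : 16 ∣ Fintype.card F ^ 2 - 1)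
    (S : Sylow 2 (ProjectiveSpecialLinearGroup (Fin 2) F)) :
    (groupFusionSystem (S : Subgroup (ProjectiveSpecialLinearGroup (Fin 2) F))).IsSimple 2 := by
  obtain ⟨j, hj, ⟨e⟩⟩ := exists_sylow_dihedral hodd h16 S
  have hF := isSaturated_group S
  have hS1 : (S : Subgroup (ProjectiveSpecialLinearGroup (Fin 2) F)) ≠ ⊥ := by
    intro h
    have := Nat.card_congr e.toEquiv
    rw [h, Subgroup.card_bot, DihedralGroup.nat_card] at this
    have := Nat.one_le_two_pow (n := j)
    omega
  refine simple_of_inn hF hS1 (stronglyClosed_trivial_of_transitive S.2 (le_antisymm ?_ ?_) ?_)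
    (autGroup_eq_inn_of_isPGroup S.2 hF ((isPGroup_mulAut_dihedral hj).of_equiv (MulAut.congr e).symm)).le
  · rw [Subgroup.closure_le]; exact fun x hx => hx.1
  · have hsr : ∀ i, ((e.symm (DihedralGroup.sr i) : (S : Subgroup (ProjectiveSpecialLinearGroup (Fin 2) F))) : ProjectiveSpecialLinearGroup (Fin 2) F) ∈
        Subgroup.closure {x | x ∈ (S : Subgroup (ProjectiveSpecialLinearGroup (Fin 2) F)) ∧ orderOf x = 2} := fun i => by
      refine Subgroup.subset_closure ⟨(e.symm (DihedralGroup.sr i)).2,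
        by rw [Subgroup.orderOf_coe, MulEquiv.orderOf_eq, DihedralGroup.orderOf_sr]⟩
    intro x hx
    rw [show x = ((e.symm (e ⟨x, hx⟩) : (S : Subgroup (ProjectiveSpecialLinearGroup (Fin 2) F))) : ProjectiveSpecialLinearGroup (Fin 2) F) by simp]
    rcases e ⟨x, hx⟩ with i | i
    · rw [show DihedralGroup.r i = DihedralGroup.sr 0 * DihedralGroup.sr i by simp, map_mul, Subgroup.coe_mul]
      exact Subgroup.mul_mem _ (hsr 0) (hsr i)
    · exact hsr i
  · intro A B hA hB hcA hcB
    obtain ⟨x, hx⟩ := exists_prime_orderOf_dvd_card' (G := A) 2 hcA.symm.dvd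
    obtain ⟨y, hy⟩ := exists_prime_orderOf_dvd_card' (G := B) 2 hcB.symm.dvd
    rw [← Subgroup.orderOf_coe] at hx hy
    obtain ⟨g, hg⟩ := psl2_involutions_conj hodd hx hy
    have hAx : Subgroup.zpowers (x : ProjectiveSpecialLinearGroup (Fin 2) F) = A :=
      Subgroup.eq_of_le_of_card_ge (Subgroup.zpowers_le.2 x.2) (by rw [hcA, Nat.card_zpowers, hx])
    have hBy : Subgroup.zpowers (y : ProjectiveSpecialLinearGroup (Fin 2) F) = B :=
      Subgroup.eq_of_le_of_card_ge (Subgroup.zpowers_le.2 y.2) (by rw [hcB, Nat.card_zpowers, hy])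
    refine isConj_group.2 ⟨hA, hB, g, ?_⟩
    rw [← hAx, ← hBy, MonoidHom.map_zpowers]
    exact congrArg Subgroup.zpowers hg

end Cfsg.Agent.Fus
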